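import Cfsg.Agent.Lib.Helper99.AutPSU.TBasic

set_option autoImplicit false

/-! Rung FINB of the ladder PSU-AUT: the semilinear map attached to a normalised automorphism. -/

namespace Cfsg.Agent.Lib.Helper69.AutPSUT

open Matrix MatrixGroups Cfsg.Agent.Lib.Helper17 Cfsg.Agent.Lib.Helper99.AutPSU

variable {F : Type*} [Field F] [Fintype F] {n q : ℕ}

theorem exists_Gamma (hF : Fintype.card F = q ^ 2) {β : MulAut (Cfsg.PSU n F q)}
    {a b : Fin n → F} (hN : Nrm β a b) (σ : F ≃+* F) (c : F) (h : AlgConcl hF hN.hp β σ c) :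
    ∃ Γ : (Fin n → F) → (Fin n → F),
      (∀ u v, Γ (u + v) = Γ u + Γ v) ∧ (∀ (x : F) v, Γ (x • v) = σ x • Γ v) ∧
      (∀ u v, Cfsg.hermForm n F q (Γ u) (Γ v) = c * σ (Cfsg.hermForm n F q u v)) ∧
      (∀ x ∈ Q q a, ∀ v, mt (lq β a x) *ᵥ Γ v = Γ (mt x *ᵥ v)) ∧
      (∀ x ∈ X q b, ∀ v, mt (lb β b x) *ᵥ Γ v = Γ (mt x *ᵥ v)) := by
  obtain ⟨hc0, hcq, hT2, hT1, hHW, htb⟩ := h
  have hp := hN.hp
  have hval : ∀ w : ↥(Wsub q a b), ∃ k : F, k + k ^ q + hW w w = 0 := by
    intro w
    obtain ⟨t, ht⟩ := exists_trace_eq hF (- hW w w) (by rw [neg_pow_q hF, hW_conj hF])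
    exact ⟨t, by rw [ht]; ring⟩
  choose kk hkk using hval
  let A : ↥(Wsub q a b) → ↥(Wsub q a b) := fun w => T1 hF hp β w (kk w)
  have hA_indep : ∀ w k, k + k ^ q + hW w w = 0 → T1 hF hp β w k = A w := by
    intro w k hk
    have h1 := hT1 1 w (kk w) k (hkk w) (by rw [one_smul]; exact hk)
    rwa [one_smul, map_one, one_smul] at h1
  have hA_smul : ∀ (x : F) w, A (x • w) = σ x • A w :=
    fun x w => hT1 x w (kk w) (kk (x • w)) (hkk w) (hkk _)
  have hA_add : ∀ w w', A (w + w') = A w + A w' := by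
    intro w w'
    have h1 := (t_mul hF hN w (kk w) w' (kk w') (hkk w) (hkk w')).1
    have h2 : InH q a b ((w : Fin n → F) + w') (kk w + kk w' - hW w' w) :=
      inH_mul hF hp (inH_W w (hkk w)) (inH_W w' (hkk w'))
    rw [hA_indep (w + w') _ h2.2.2] at h1
    exact h1
  have hA_form : ∀ w w', hW (A w) (A w') = c * σ (hW w w') :=
    fun w w' => hHW w (kk w) w' (kk w') (hkk w) (hkk w')
  have hA_zero : A 0 = 0 := by
    have h1 := hA_smul 0 0
    simpa using h1
  let PW : (Fin n → F) → ↥(Wsub q a b) := fun v => ⟨pw q a b v, pw_a hF hp v, pw_b hF hp v⟩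
  have hPW_add : ∀ u v, PW (u + v) = PW u + PW v := by
    intro u v
    apply Subtype.ext
    simp only [PW, pw, Submodule.coe_add, hermForm_add_left]
    module
  have hPW_smul : ∀ (x : F) v, PW (x • v) = x • PW v := by
    intro x v
    apply Subtype.ext
    simp only [PW, pw, Submodule.coe_smul, hermForm_smul_left]
    module
  let Γ : (Fin n → F) → (Fin n → F) := fun v =>
    (c * σ (Cfsg.hermForm n F q v b)) • a + σ (Cfsg.hermForm n F q v a) • b +
      (A (PW v) : Fin n → F)
  have hΓdef : ∀ v, Γ v = (c * σ (Cfsg.hermForm n F q v b)) • a +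
      σ (Cfsg.hermForm n F q v a) • b + (A (PW v) : Fin n → F) := fun v => rfl
  have hadd : ∀ u v, Γ (u + v) = Γ u + Γ v := by
    intro u v
    simp only [hΓdef, hPW_add, hA_add, hermForm_add_left, map_add, Submodule.coe_add]
    module
  have hsmul : ∀ (x : F) v, Γ (x • v) = σ x • Γ v := by
    intro x v
    simp only [hΓdef, hPW_smul, hA_smul, hermForm_smul_left, map_mul, Submodule.coe_smul]
    module
  have hΓa : ∀ v, Cfsg.hermForm n F q (Γ v) a = σ (Cfsg.hermForm n F q v a) := by
    intro v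
    simp only [hΓdef, hermForm_add_left, hermForm_smul_left, hp.a0, hp.ba hF, (A (PW v)).2.1]
    ring
  have hΓb : ∀ v, Cfsg.hermForm n F q (Γ v) b = c * σ (Cfsg.hermForm n F q v b) := by
    intro v
    simp only [hΓdef, hermForm_add_left, hermForm_smul_left, hp.b0, hp.ab, (A (PW v)).2.2]
    ring
  have hΓW : ∀ v (w : ↥(Wsub q a b)), Cfsg.hermForm n F q (Γ v) (A w : Fin n → F) =
      c * σ (Cfsg.hermForm n F q v (w : Fin n → F)) := by
    intro v w
    have h1 : Cfsg.hermForm n F q (A (PW v) : Fin n → F) (A w : Fin n → F) =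
        c * σ (hW (PW v) w) := hA_form (PW v) w
    have h2 : hW (PW v) w = Cfsg.hermForm n F q v (w : Fin n → F) := by
      simp only [hW, PW, pw, hermForm_sub_left, hermForm_smul_left, herm_zero_comm hF w.2.1,
        herm_zero_comm hF w.2.2]
      ring
    simp only [hΓdef, hermForm_add_left, hermForm_smul_left, herm_zero_comm hF (A w).2.1,
      herm_zero_comm hF (A w).2.2, h1, h2]
    ring
  have hform : ∀ u v, Cfsg.hermForm n F q (Γ u) (Γ v) = c * σ (Cfsg.hermForm n F q u v) := by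
    intro u v
    have hdec : Cfsg.hermForm n F q u v = (Cfsg.hermForm n F q v b) ^ q * Cfsg.hermForm n F q u a +
        (Cfsg.hermForm n F q v a) ^ q * Cfsg.hermForm n F q u b +
        Cfsg.hermForm n F q u (pw q a b v) := by
      conv_lhs => rw [decomp (q := q) a b v]
      rw [hermForm_add_right hF, hermForm_add_right hF, hermForm_smul_right, hermForm_smul_right]
    have h1 := hΓW u (PW v)
    rw [hΓdef v, hermForm_add_right hF, hermForm_add_right hF, hermForm_smul_right,
      hermForm_smul_right, hΓa, hΓb, h1, hdec]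
    simp only [map_add, map_mul, map_pow, mul_pow, hcq, PW]
    ring
  have hPWa : PW a = 0 := by
    apply Subtype.ext
    simp only [PW, pw, hp.ab, hp.a0, Submodule.coe_zero]
    module
  have hPWb : PW b = 0 := by
    apply Subtype.ext
    simp only [PW, pw, hp.b0, hp.ba hF, Submodule.coe_zero]
    module
  have hΓ_a : Γ a = c • a := by
    simp only [hΓdef, hPWa, hA_zero, hp.ab, hp.a0, map_one, map_zero, Submodule.coe_zero]
    module
  have hΓ_b : Γ b = b := by
    simp only [hΓdef, hPWb, hA_zero, hp.b0, hp.ba hF, map_one, map_zero, Submodule.coe_zero]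
    module
  have hΓ_W : ∀ w : ↥(Wsub q a b), Γ (w : Fin n → F) = (A w : Fin n → F) := by
    intro w
    have h1 : PW (w : Fin n → F) = w := by
      apply Subtype.ext
      simp only [PW, pw, w.2.1, w.2.2]
      module
    simp only [hΓdef, h1, w.2.1, w.2.2, map_zero]
    module
  refine ⟨Γ, hadd, hsmul, hform, ?_, ?_⟩
  · intro x hx v
    let w : ↥(Wsub q a b) := ⟨wc q a b x, wc_a hF hp hx, wc_b hp x⟩
    have hk : kc q b x + (kc q b x) ^ q + hW w w = 0 := kc_rel hF hp hx
    have hel : el hF hp (w : Fin n → F) (kc q b x) = x := el_eq hF hp hx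
    have hwc : wc q a b (lq β a x) = (A w : Fin n → F) := by
      rw [← hA_indep w _ hk]
      simp only [T1]
      rw [hel]
    have hkc : kc q b (lq β a x) = c * σ (kc q b x) := by
      rw [← hT2 w _ hk]
      simp only [T2]
      rw [hel]
    have hw : wc q a b x = (w : Fin n → F) := rfl
    rw [Q_formula hF hp (lq_mem β a x) (Γ v), Q_formula hF hp hx v, hwc, hkc, hΓa, hΓW, hw]
    simp only [hadd, hsmul, hΓ_a, hΓ_W, map_neg]
    module
  · intro x hx v
    obtain ⟨l, hl, hxl⟩ := (mem_X_iff hF (hp.symm hF) x).1 hx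
    have hxtv : x = tv hF hp.b0 l := by
      apply su_ext'
      intro u
      rw [hxl, tv_mulVec hF hp.b0 hl]
    rw [hxl, hxtv, lb_tv_mulVec hF hp, htb l hl, hΓb]
    simp only [hadd, hsmul, hΓ_b, map_mul]
    rw [show c⁻¹ * σ l * (c * σ (Cfsg.hermForm n F q v b)) =
      σ l * σ (Cfsg.hermForm n F q v b) by field_simp]

end Cfsg.Agent.Lib.Helper69.AutPSUT
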